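import Mathlib
import Cfsg.Agent.Lib.Helper49.Refl

set_option autoImplicit false

/-! Ladder OFLAG (S2487): definitions. -/

namespace Cfsg.Agent.Lib.Helper68.OFlag

open QuadraticMap Module Cfsg.Agent.Lib.Helper49

variable {F : Type*} [Field F] {V : Type*} [AddCommGroup V] [Module F V] (Q : QuadraticForm F V)

/-- totally singular subspaces. -/
def TS (W : Submodule F V) : Prop := ∀ x ∈ W, Q x = 0

/-- subspaces invariant under a subgroup of the orthogonal group. -/
def Inv (P : Subgroup (OG Q)) (W : Submodule F V) : Prop := ∀ g ∈ P, ∀ x ∈ W, g.1 x ∈ W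

/-- the orthogonal complement for the polar form. -/
abbrev perp (W : Submodule F V) : Submodule F V := LinearMap.BilinForm.orthogonal (polarBilin Q) W

theorem mem_perp {W : Submodule F V} {x : V} : x ∈ perp Q W ↔ ∀ w ∈ W, polar Q w x = 0 := Iff.rfl

/-- the pointwise stabiliser of a subspace. -/
def RR (A : Submodule F V) : Subgroup (OG Q) where
  carrier := {h | ∀ a ∈ A, h.1 a = a}
  mul_mem' := by
    intro g h hg hh a ha
    change g.1 (h.1 a) = a
    rw [hh a ha, hg a ha]
  one_mem' := fun a _ => rfl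
  inv_mem' := by
    intro g hg a ha
    have h1 : (g⁻¹ * g).1 a = a := by rw [inv_mul_cancel]; rfl
    change (g⁻¹).1 (g.1 a) = a at h1
    rw [hg a ha] at h1
    exact h1

theorem mem_RR {A : Submodule F V} {h : OG Q} : h ∈ RR Q A ↔ ∀ a ∈ A, h.1 a = a := Iff.rfl

end Cfsg.Agent.Lib.Helper68.OFlag
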