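import Mathlib
import Cfsg.Agent.Lib.Helper68.OFlag.Defs

set_option autoImplicit false

/-! Ladder OFLAG (S2487), rung RAD (helper76). -/

namespace Cfsg.Agent.Lib.Helper68.OFlag

open QuadraticMap Module Cfsg.Agent.Lib.Helper49

variable {F : Type*} [Field F] [Fintype F] {V : Type*} [AddCommGroup V] [Module F V]
  [FiniteDimensional F V] (Q : QuadraticForm F V)

omit [FiniteDimensional F V] in
theorem rad_zero_or_one (hF : Fintype.card F = 2) (x : F) : x = 0 ∨ x = 1 := by
  classical
  by_contra hx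
  push Not at hx
  have h : ({0, 1, x} : Finset F).card ≤ Fintype.card F := Finset.card_le_univ _
  rw [Finset.card_insert_of_notMem (by simp [hx.1.symm]),
    Finset.card_insert_of_notMem (by simp [hx.2.symm]), Finset.card_singleton] at h
  omega

theorem rad_two (hF : Fintype.card F = 2) : (1 : F) + 1 = 0 := by
  rcases rad_zero_or_one hF ((1 : F) + 1) with h | h
  · exact h
  · exfalso
    have : (1 : F) = 0 := by linear_combination h
    exact one_ne_zero this

omit [Fintype F] [FiniteDimensional F V] in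
theorem rad_Q (A : Submodule F V) (hA : TS Q A)
    (e f : V) (he : e ∈ perp Q A) (hf : f ∈ perp Q A) (hQe : Q e = 0) (hQf : Q f = 0)
    (hef : polar Q e f = 1) (a : V) (ha : a ∈ A) (α β : F) :
    Q (a + α • e + β • f) = α * β := by
  have h1 : polar Q a e = 0 := (mem_perp Q).1 he a ha
  have h2 : polar Q a f = 0 := (mem_perp Q).1 hf a ha
  rw [QuadraticMap.map_add Q, QuadraticMap.map_add Q, QuadraticMap.map_smul, QuadraticMap.map_smul,
    polar_add_left, polar_smul_right, polar_smul_right, polar_smul_right, polar_smul_left,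
    hA a ha, hQe, hQf, h1, h2, hef]
  simp only [smul_eq_mul]
  ring

omit [Fintype F] [FiniteDimensional F V] in
theorem rad_polar (A : Submodule F V) (hA : TS Q A)
    (e f : V) (he : e ∈ perp Q A) (hf : f ∈ perp Q A) (hQe : Q e = 0) (hQf : Q f = 0)
    (hef : polar Q e f = 1) (a : V) (ha : a ∈ A) (α β : F) (a' : V) (ha' : a' ∈ A) (α' β' : F) :
    polar Q (a + α • e + β • f) (a' + α' • e + β' • f) = α * β' + β * α' := by
  have h1 : polar Q a e = 0 := (mem_perp Q).1 he a ha
  have h2 : polar Q a f = 0 := (mem_perp Q).1 hf a ha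
  have h1' : polar Q e a' = 0 := by rw [polar_comm]; exact (mem_perp Q).1 he a' ha'
  have h2' : polar Q f a' = 0 := by rw [polar_comm]; exact (mem_perp Q).1 hf a' ha'
  have h3 : polar Q a a' = 0 := by
    simp only [polar, hA a ha, hA a' ha', hA _ (A.add_mem ha ha'), sub_zero]
  have h4 : polar Q e e = 0 := by rw [polar_self, hQe, smul_zero]
  have h5 : polar Q f f = 0 := by rw [polar_self, hQf, smul_zero]
  have h6 : polar Q f e = 1 := by rw [polar_comm]; exact hef
  simp only [polar_add_left, polar_add_right, polar_smul_left, polar_smul_right, h1, h2, h1', h2',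
    h3, h4, h5, h6, hef, smul_eq_mul]
  ring

omit [Fintype F] [FiniteDimensional F V] in
theorem rad_sub_mem_perp (A : Submodule F V) (h : OG Q) (hh : h ∈ RR Q A) (v : V) :
    h.1 v - v ∈ perp Q A := by
  rw [mem_perp]
  intro a ha
  rw [polar_sub_right]
  nth_rewrite 1 [← (mem_RR Q).1 hh a ha]
  rw [OG_polar, sub_self]

theorem rad (hF : Fintype.card F = 2) (A : Submodule F V) (hA : TS Q A)
    (e f : V) (he : e ∈ perp Q A) (hf : f ∈ perp Q A) (hQe : Q e = 0) (hQf : Q f = 0)
    (hef : polar Q e f = 1)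
    (hsp : ∀ x ∈ perp Q A, ∃ a ∈ A, ∃ α β : F, x = a + α • e + β • f) :
    IsPGroup 2 (RR Q A) := by
  have h2F := rad_two hF
  have h2V : ∀ x : V, x + x = 0 := by
    intro x
    have : x + x = ((1 : F) + 1) • x := by rw [add_smul, one_smul]
    rw [this, h2F, zero_smul]
  rintro ⟨h, hh⟩
  refine ⟨3, ?_⟩
  apply Subtype.ext
  have hfix : ∀ a ∈ A, h.1 a = a := (mem_RR Q).1 hh
  have hmap : ∀ x ∈ perp Q A, h.1 x ∈ perp Q A := by
    intro x hx
    have := (perp Q A).add_mem (rad_sub_mem_perp Q A h hh x) hx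
    rwa [sub_add_cancel] at this
  obtain ⟨a1, ha1, α1, β1, h1⟩ := hsp _ (hmap e he)
  obtain ⟨a2, ha2, α2, β2, h2⟩ := hsp _ (hmap f hf)
  have q1 : α1 * β1 = 0 := by
    rw [← rad_Q Q A hA e f he hf hQe hQf hef a1 ha1 α1 β1, ← h1, OG_apply, hQe]
  have q2 : α2 * β2 = 0 := by
    rw [← rad_Q Q A hA e f he hf hQe hQf hef a2 ha2 α2 β2, ← h2, OG_apply, hQf]
  have q3 : α1 * β2 + β1 * α2 = 1 := by
    rw [← rad_polar Q A hA e f he hf hQe hQf hef a1 ha1 α1 β1 a2 ha2 α2 β2, ← h1, ← h2, OG_polar,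
      hef]
  -- `k = h * h`
  have ke : h.1 (h.1 e) - e ∈ A ∧ h.1 (h.1 f) - f ∈ A := by
    rcases rad_zero_or_one hF α1 with r1 | r1 <;> rcases rad_zero_or_one hF β1 with r2 | r2 <;>
    rcases rad_zero_or_one hF α2 with r3 | r3 <;> rcases rad_zero_or_one hF β2 with r4 | r4 <;>
    subst r1 r2 r3 r4 <;> simp only [mul_zero, zero_mul, mul_one, add_zero, zero_add,
      zero_ne_one, one_ne_zero] at q1 q2 q3
    · -- α1 = 0, β1 = 1, α2 = 1, β2 = 0
      simp only [zero_smul, one_smul, add_zero] at h1 h2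
      constructor
      · rw [h1, map_add, hfix a1 ha1, h2]
        have : a1 + (a2 + e) - e = a1 + a2 := by abel
        rw [this]; exact A.add_mem ha1 ha2
      · rw [h2, map_add, hfix a2 ha2, h1]
        have : a2 + (a1 + f) - f = a2 + a1 := by abel
        rw [this]; exact A.add_mem ha2 ha1
    · -- α1 = 1, β1 = 0, α2 = 0, β2 = 1
      simp only [zero_smul, one_smul, add_zero] at h1 h2
      constructor
      · rw [h1, map_add, hfix a1 ha1, h1]
        have : a1 + (a1 + e) - e = a1 + a1 := by abel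
        rw [this]; exact A.add_mem ha1 ha1
      · rw [h2, map_add, hfix a2 ha2, h2]
        have : a2 + (a2 + f) - f = a2 + a2 := by abel
        rw [this]; exact A.add_mem ha2 ha2
  set k : OG Q := h * h with hk
  have hkk : k ∈ RR Q A := (RR Q A).mul_mem hh hh
  have hkapp : ∀ v, k.1 v = h.1 (h.1 v) := fun v => rfl
  let N : V →ₗ[F] V := k.1.toLinearMap - LinearMap.id
  have hN : ∀ v, N v = k.1 v - v := fun v => rfl
  have hkN : ∀ v, k.1 v = v + N v := by intro v; rw [hN]; abel
  have N1 : ∀ v, N v ∈ perp Q A := fun v => rad_sub_mem_perp Q A k hkk v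
  have N3 : ∀ a ∈ A, N a = 0 := by
    intro a ha
    rw [hN, (mem_RR Q).1 hkk a ha, sub_self]
  have N2 : ∀ x ∈ perp Q A, N x ∈ A := by
    intro x hx
    obtain ⟨a, ha, α, β, rfl⟩ := hsp x hx
    rw [map_add, map_add, map_smul, map_smul, N3 a ha, zero_add]
    exact A.add_mem (A.smul_mem _ ke.1) (A.smul_mem _ ke.2)
  have NNN : ∀ v, N (N (N v)) = 0 := fun v => N3 _ (N2 _ (N1 v))
  have hk2 : ∀ v, k.1 (k.1 v) = v + N (N v) := by
    intro v
    rw [hkN (k.1 v), hkN v, map_add]
    have : v + N v + (N v + N (N v)) = v + (N v + N v) + N (N v) := by abel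
    rw [this, h2V, add_zero]
  have hk4 : ∀ v, k.1 (k.1 (k.1 (k.1 v))) = v := by
    intro v
    rw [hk2, hk2, map_add, map_add, NNN, add_zero]
    have : v + N (N v) + N (N v) = v + (N (N v) + N (N v)) := by abel
    rw [this, h2V, add_zero]
  have h8 : h ^ 2 ^ 3 = k * k * (k * k) := by
    rw [hk]
    norm_num [pow_succ, mul_assoc]
  change h ^ 2 ^ 3 = 1
  rw [h8]
  apply Subtype.ext
  ext v
  exact hk4 v

end Cfsg.Agent.Lib.Helper68.OFlag
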