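import Mathlib
import Cfsg.Agent.Lib.Helper68.OFlag.Defs
import Cfsg.Agent.Lib.Helper68.OFlag.RAD

set_option autoImplicit false

/-! Ladder OFLAG (S2487), rung HYP (helper76). -/

namespace Cfsg.Agent.Lib.Helper68.OFlag

open QuadraticMap Module Cfsg.Agent.Lib.Helper49

variable {F : Type*} [Field F] [Fintype F] {V : Type*} [AddCommGroup V] [Module F V]
  [FiniteDimensional F V] (Q : QuadraticForm F V)

omit [Fintype F] [FiniteDimensional F V] in
theorem hyp_isRefl : (polarBilin Q).IsRefl := by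
  intro x y h
  rw [polarBilin_apply_apply] at h ⊢
  rw [polar_comm]
  exact h

omit [Fintype F] in
theorem hyp_finrank_perp (hQ : (polarBilin Q).Nondegenerate) (W : Submodule F V) :
    finrank F (perp Q W) = finrank F V - finrank F W :=
  LinearMap.BilinForm.finrank_orthogonal hQ W

omit [Fintype F] in
theorem hyp_finrank_sup (A : Submodule F V) (e : V) (heA : e ∉ A) :
    finrank F (A ⊔ Submodule.span F {e} : Submodule F V) = finrank F A + 1 := by
  have he0 : e ≠ 0 := by
    rintro rfl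
    exact heA A.zero_mem
  have h1 := Submodule.finrank_sup_add_finrank_inf_eq A (Submodule.span F {e})
  have h2 : A ⊓ Submodule.span F {e} = ⊥ :=
    disjoint_iff.1 ((Submodule.disjoint_span_singleton' he0).2 heA)
  rw [h2, finrank_bot, finrank_span_singleton he0] at h1
  omega

theorem hyp (hF : Fintype.card F = 2) (hQ : (polarBilin Q).Nondegenerate) {m : ℕ}
    (hV : finrank F V = 2 * m) (A : Submodule F V) (hA : TS Q A) (hAd : finrank F A + 1 = m)
    (e : V) (he : e ∈ perp Q A) (heA : e ∉ A) (hQe : Q e = 0) :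
    ∃ f ∈ perp Q A, Q f = 0 ∧ polar Q e f = 1 ∧
      ∀ x ∈ perp Q A, ∃ a ∈ A, ∃ α β : F, x = a + α • e + β • f := by
  have h2F := rad_two hF
  set E : Submodule F V := A ⊔ Submodule.span F {e} with hE
  have hEd : finrank F E = m := by rw [hE, hyp_finrank_sup A e heA, hAd]
  have hee : polar Q e e = 0 := by rw [polar_self, hQe, smul_zero]
  have hmemE : ∀ x, x ∈ E ↔ ∃ a ∈ A, ∃ c : F, x = a + c • e := by
    intro x
    rw [hE, Submodule.mem_sup]
    constructor
    · rintro ⟨a, ha, z, hz, rfl⟩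
      obtain ⟨c, rfl⟩ := Submodule.mem_span_singleton.1 hz
      exact ⟨a, ha, c, rfl⟩
    · rintro ⟨a, ha, c, rfl⟩
      exact ⟨a, ha, c • e, Submodule.mem_span_singleton.2 ⟨c, rfl⟩, rfl⟩
  -- membership in `perp E`
  have hperpE : ∀ x, x ∈ perp Q E ↔ x ∈ perp Q A ∧ polar Q e x = 0 := by
    intro x
    constructor
    · intro hx
      refine ⟨?_, ?_⟩
      · rw [mem_perp]
        intro a ha
        exact (mem_perp Q).1 hx a ((hmemE a).2 ⟨a, ha, 0, by simp⟩)
      · exact (mem_perp Q).1 hx e ((hmemE e).2 ⟨0, A.zero_mem, 1, by simp⟩)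
    · rintro ⟨hx1, hx2⟩
      rw [mem_perp]
      intro w hw
      obtain ⟨a, ha, c, rfl⟩ := (hmemE w).1 hw
      rw [polar_add_left, polar_smul_left, (mem_perp Q).1 hx1 a ha, hx2, smul_zero, add_zero]
  have hAA : ∀ a ∈ A, ∀ a' ∈ A, polar Q a a' = 0 := by
    intro a ha a' ha'
    simp only [polar, hA a ha, hA a' ha', hA _ (A.add_mem ha ha'), sub_zero]
  have hEle : E ≤ perp Q E := by
    intro x hx
    obtain ⟨a, ha, c, rfl⟩ := (hmemE x).1 hx
    rw [hperpE]
    constructor
    · rw [mem_perp]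
      intro a' ha'
      rw [polar_add_right, polar_smul_right, hAA a' ha' a ha, (mem_perp Q).1 he a' ha', smul_zero,
        add_zero]
    · rw [polar_add_right, polar_smul_right, hee, smul_zero, add_zero, polar_comm]
      exact (mem_perp Q).1 he a ha
  have hEeq : perp Q E = E := by
    symm
    apply Submodule.eq_of_le_of_finrank_eq hEle
    rw [hyp_finrank_perp Q hQ, hV, hEd]
    omega
  have hlt : finrank F (perp Q E) < finrank F (perp Q A) := by
    rw [hyp_finrank_perp Q hQ, hyp_finrank_perp Q hQ, hV, hEd]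
    omega
  obtain ⟨f₀, hf₀, hf₀E⟩ : ∃ f₀ ∈ perp Q A, f₀ ∉ perp Q E := by
    by_contra hcon
    push Not at hcon
    have hle : perp Q A ≤ perp Q E := hcon
    have := Submodule.finrank_mono hle
    omega
  have hef₀ : polar Q e f₀ = 1 := by
    rcases rad_zero_or_one hF (polar Q e f₀) with h | h
    · exact absurd ((hperpE f₀).2 ⟨hf₀, h⟩) hf₀E
    · exact h
  obtain ⟨f, hf, hQf, hef⟩ : ∃ f ∈ perp Q A, Q f = 0 ∧ polar Q e f = 1 := by
    rcases rad_zero_or_one hF (Q f₀) with h | h
    · exact ⟨f₀, hf₀, h, hef₀⟩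
    · refine ⟨f₀ + e, (perp Q A).add_mem hf₀ he, ?_, ?_⟩
      · rw [QuadraticMap.map_add Q, h, hQe, polar_comm, hef₀, add_zero, h2F]
      · rw [polar_add_right, hef₀, hee, add_zero]
  refine ⟨f, hf, hQf, hef, ?_⟩
  intro x hx
  have hx' : x - polar Q e x • f ∈ perp Q E := by
    rw [hperpE]
    refine ⟨(perp Q A).sub_mem hx ((perp Q A).smul_mem _ hf), ?_⟩
    rw [polar_sub_right, polar_smul_right, hef, smul_eq_mul, mul_one, sub_self]
  rw [hEeq] at hx'
  obtain ⟨a, ha, c, hac⟩ := (hmemE _).1 hx'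
  refine ⟨a, ha, c, polar Q e x, ?_⟩
  rw [← hac]
  abel

end Cfsg.Agent.Lib.Helper68.OFlag
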