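import Mathlib
import Cfsg.Agent.Lib.Helper68.OFlag.Defs

set_option autoImplicit false

/-! Ladder OFLAG (S2487): rung EXT0. -/

namespace Cfsg.Agent.Lib.Helper68.OFlag

open QuadraticMap Module Cfsg.Agent.Lib.Helper49

variable {F : Type*} [Field F] {V : Type*} [AddCommGroup V] [Module F V]
  [FiniteDimensional F V] (Q : QuadraticForm F V)

theorem ext0_finrank (W : Submodule F V) (u : V) (huW : u ∉ W) :
    finrank F (W ⊔ Submodule.span F {u} : Submodule F V) = finrank F W + 1 := by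
  have hu0 : u ≠ 0 := by
    rintro rfl
    exact huW W.zero_mem
  have h1 := Submodule.finrank_sup_add_finrank_inf_eq W (Submodule.span F {u})
  have h2 : W ⊓ Submodule.span F {u} = ⊥ :=
    ((Submodule.disjoint_span_singleton' hu0).2 huW).eq_bot
  rw [h2, finrank_bot, finrank_span_singleton hu0] at h1
  omega

omit [FiniteDimensional F V] in
theorem ext0_mem {W : Submodule F V} {u x : V} :
    x ∈ W ⊔ Submodule.span F {u} ↔ ∃ w ∈ W, ∃ c : F, x = w + c • u := by
  rw [Submodule.mem_sup]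
  constructor
  · rintro ⟨w, hw, z, hz, rfl⟩
    obtain ⟨c, rfl⟩ := Submodule.mem_span_singleton.1 hz
    exact ⟨w, hw, c, rfl⟩
  · rintro ⟨w, hw, c, rfl⟩
    exact ⟨w, hw, c • u, Submodule.mem_span_singleton.2 ⟨c, rfl⟩, rfl⟩

omit [FiniteDimensional F V] in
theorem ext0_inv (P : Subgroup (OG Q)) (W : Submodule F V) (hW : Inv Q P W)
    (u : V) (hg : ∀ g ∈ P, g.1 u - u ∈ W) : Inv Q P (W ⊔ Submodule.span F {u}) := by
  intro g hgP x hx
  obtain ⟨w, hw, c, rfl⟩ := ext0_mem.1 hx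
  refine ext0_mem.2 ⟨g.1 w + c • (g.1 u - u), W.add_mem (hW g hgP w hw) (W.smul_mem c (hg g hgP)),
    c, ?_⟩
  rw [map_add, map_smul, smul_sub]
  abel

omit [FiniteDimensional F V] in
theorem ext0_Q (W : Submodule F V) (hts : TS Q W) (u : V) (hu : u ∈ perp Q W) (w : V) (hw : w ∈ W)
    (c : F) : Q (w + c • u) = c * c * Q u := by
  rw [QuadraticMap.map_add Q, hts w hw, QuadraticMap.map_smul, polar_smul_right,
    (mem_perp Q).1 hu w hw]
  simp

/-- [EXT0] -/
theorem ext0 (P : Subgroup (OG Q)) (W : Submodule F V) (hW : Inv Q P W) (hts : TS Q W)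
    (u : V) (hu : u ∈ perp Q W) (huW : u ∉ W) (hQu : Q u = 0) (hg : ∀ g ∈ P, g.1 u - u ∈ W) :
    ∃ W' : Submodule F V, Inv Q P W' ∧ TS Q W' ∧ finrank F W' = finrank F W + 1 := by
  refine ⟨W ⊔ Submodule.span F {u}, ext0_inv Q P W hW u hg, ?_, ext0_finrank W u huW⟩
  intro x hx
  obtain ⟨w, hw, c, rfl⟩ := ext0_mem.1 hx
  rw [ext0_Q Q W hts u hu w hw c, hQu, mul_zero]

end Cfsg.Agent.Lib.Helper68.OFlag
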