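import Mathlib
import Cfsg.Agent.Lib.Helper68.OFlag.Defs
import Cfsg.Agent.Lib.Helper63.PGroupFixed

set_option autoImplicit false

/-! Ladder OFLAG (S2487): rung LEMQ. -/

namespace Cfsg.Agent.Lib.Helper68.OFlag

open QuadraticMap Module Cfsg.Agent.Lib.Helper49

variable {F : Type*} [Field F] [Fintype F] {V : Type*} [AddCommGroup V] [Module F V]
  [FiniteDimensional F V] (Q : QuadraticForm F V)

/-- the quotient representation. -/
noncomputable def lemq_rep (P : Subgroup (OG Q)) (W : Submodule F V) (hW : Inv Q P W) :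
    Representation F P (V ⧸ W) where
  toFun g := W.mapQ W (g.1.1 : V →ₗ[F] V) (fun x hx => hW g.1 g.2 x hx)
  map_one' := by
    ext x
    rfl
  map_mul' g h := by
    ext x
    rfl

theorem lemq_rep_mk (P : Subgroup (OG Q)) (W : Submodule F V) (hW : Inv Q P W) (g : P) (x : V) :
    lemq_rep Q P W hW g (W.mkQ x) = W.mkQ (g.1.1 x) := rfl

theorem lemq_charP (hF : Fintype.card F = 2) : CharP F 2 := by
  apply CharTwo.of_one_ne_zero_of_two_eq_zero one_ne_zero
  have := Nat.cast_card_eq_zero F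
  rw [hF] at this
  exact_mod_cast this

theorem lemq_finite : Finite (OG Q) := by
  have : Finite V := Module.finite_of_finite F
  have : Finite (V ≃ₗ[F] V) :=
    Finite.of_injective (fun g : V ≃ₗ[F] V => (g : V → V)) DFunLike.coe_injective
  infer_instance

/-- [LEMQ] -/
theorem lemq (hF : Fintype.card F = 2) (P : Subgroup (OG Q)) (hP : IsPGroup 2 P)
    (W U : Submodule F V) (hW : Inv Q P W) (hU : Inv Q P U) (hWU : W < U) :
    ∃ u ∈ U, u ∉ W ∧ ∀ g ∈ P, g.1 u - u ∈ W := by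
  haveI := lemq_charP hF
  haveI := lemq_finite Q
  haveI : Fact (Nat.Prime 2) := ⟨Nat.prime_two⟩
  obtain ⟨u₀, hu₀, hu₀W⟩ := SetLike.exists_of_lt hWU
  have hne : U.map W.mkQ ≠ ⊥ := by
    intro h
    have h1 : W.mkQ u₀ ∈ U.map W.mkQ := Submodule.mem_map_of_mem hu₀
    rw [h, Submodule.mem_bot, Submodule.mkQ_apply, Submodule.Quotient.mk_eq_zero] at h1
    exact hu₀W h1
  obtain ⟨v, hv, hv0, hfix⟩ := Cfsg.Agent.Lib.Helper63.exists_fixed_vector hP (lemq_rep Q P W hW)
    (U.map W.mkQ) (by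
      rintro g _ ⟨u, hu, rfl⟩
      rw [lemq_rep_mk]
      exact Submodule.mem_map_of_mem (hU g.1 g.2 u hu)) hne
  obtain ⟨u, hu, rfl⟩ := hv
  refine ⟨u, hu, ?_, ?_⟩
  · intro h
    apply hv0
    rw [Submodule.mkQ_apply, Submodule.Quotient.mk_eq_zero]
    exact h
  · intro g hg
    have := hfix ⟨g, hg⟩
    rw [lemq_rep_mk, Submodule.mkQ_apply, Submodule.mkQ_apply, Submodule.Quotient.eq] at this
    exact this

end Cfsg.Agent.Lib.Helper68.OFlag
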