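import Mathlib
import Cfsg.Agent.Lib.Helper68.OFlag.Defs
import Cfsg.Agent.Lib.Helper68.OFlag.LEMQ
import Cfsg.Agent.Lib.Helper68.OFlag.EXT0

set_option autoImplicit false

/-! Ladder OFLAG (S2487): rung EXT. -/

namespace Cfsg.Agent.Lib.Helper68.OFlag

open QuadraticMap Module Cfsg.Agent.Lib.Helper49

variable {F : Type*} [Field F] [Fintype F] {V : Type*} [AddCommGroup V] [Module F V]
  [FiniteDimensional F V] (Q : QuadraticForm F V)

theorem ext_F2 (hF : Fintype.card F = 2) (c : F) : c = 0 ∨ c = 1 := by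
  classical
  by_contra h
  push Not at h
  have h1 : ({0, 1, c} : Finset F).card ≤ Fintype.card F := Finset.card_le_univ _
  rw [Finset.card_eq_three.2 ⟨0, 1, c, zero_ne_one, h.1.symm, h.2.symm, rfl⟩] at h1
  omega

omit [Fintype F] [FiniteDimensional F V] in
theorem ext_perp_inv (P : Subgroup (OG Q)) (W : Submodule F V) (hW : Inv Q P W) :
    Inv Q P (perp Q W) := by
  intro g hg x hx
  rw [mem_perp] at hx ⊢
  intro w hw
  have h1 : (g⁻¹).1 w ∈ W := hW g⁻¹ (P.inv_mem hg) w hw
  have h2 : g.1 ((g⁻¹).1 w) = w := by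
    have h3 : (g * g⁻¹).1 w = w := by rw [mul_inv_cancel]; rfl
    exact h3
  rw [← h2, OG_polar]
  exact hx _ h1

omit [Fintype F] [FiniteDimensional F V] in
theorem ext_le_perp (W : Submodule F V) (hts : TS Q W) : W ≤ perp Q W := by
  intro x hx
  rw [mem_perp]
  intro w hw
  rw [polar, hts _ (W.add_mem hw hx), hts w hw, hts x hx]
  simp

omit [Fintype F] in
theorem ext_finrank_perp (hQ : (polarBilin Q).Nondegenerate) (W : Submodule F V) :
    finrank F (perp Q W) + finrank F W = finrank F V := by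
  have h1 := LinearMap.BilinForm.finrank_orthogonal hQ W
  have h2 := Submodule.finrank_le W
  change finrank F (perp Q W) = _ at h1
  omega

/-- [EXT] -/
theorem ext_step (hF : Fintype.card F = 2) (hQ : (polarBilin Q).Nondegenerate) {m : ℕ}
    (hV : finrank F V = 2 * m) (P : Subgroup (OG Q)) (hP : IsPGroup 2 P)
    (W : Submodule F V) (hW : Inv Q P W) (hts : TS Q W) (hk : finrank F W + 1 < m) :
    ∃ W' : Submodule F V, Inv Q P W' ∧ TS Q W' ∧ finrank F W' = finrank F W + 1 := by
  have hch := lemq_charP hF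
  have h2 : (2 : F) = 0 := CharTwo.two_eq_zero
  have hlt : W < perp Q W := by
    refine lt_of_le_of_ne (ext_le_perp Q W hts) ?_
    intro h
    have h1 := ext_finrank_perp Q hQ W
    rw [← h] at h1
    omega
  obtain ⟨u, hu, huW, hug⟩ := lemq Q hF P hP W (perp Q W) hW (ext_perp_inv Q P W hW) hlt
  rcases ext_F2 hF (Q u) with hQu | hQu
  · exact ext0 Q P W hW hts u hu huW hQu hug
  set U : Submodule F V := W ⊔ Submodule.span F {u} with hU
  have hUi : Inv Q P U := ext0_inv Q P W hW u hug
  have hUd : finrank F U = finrank F W + 1 := ext0_finrank W u huW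
  have hWU : W ≤ U := le_sup_left
  have huU : u ∈ U := ext0_mem.2 ⟨0, W.zero_mem, 1, by simp⟩
  have hUU : U ≤ perp Q U := by
    intro x hx
    rw [mem_perp]
    intro y hy
    obtain ⟨w, hw, c, rfl⟩ := ext0_mem.1 hx
    obtain ⟨w', hw', c', rfl⟩ := ext0_mem.1 hy
    have e1 : polar Q w' w = 0 := (mem_perp Q).1 (ext_le_perp Q W hts hw) w' hw'
    have e2 : polar Q w' u = 0 := (mem_perp Q).1 hu w' hw'
    have e3 : polar Q u w = 0 := by rw [polar_comm]; exact (mem_perp Q).1 hu w hw
    have e4 : polar Q u u = 0 := by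
      rw [polar_self, nsmul_eq_mul]
      push_cast
      rw [h2, zero_mul]
    rw [polar_add_left, polar_add_right, polar_add_right, polar_smul_left, polar_smul_left,
      polar_smul_right, polar_smul_right, e1, e2, e3, e4]
    simp
  have hlt' : U < perp Q U := by
    refine lt_of_le_of_ne hUU ?_
    intro h
    have h1 := ext_finrank_perp Q hQ U
    rw [← h] at h1
    omega
  obtain ⟨x, hx, hxU, hxg⟩ := lemq Q hF P hP U (perp Q U) hUi (ext_perp_inv Q P U hUi) hlt'
  have hxW : x ∈ perp Q W := LinearMap.BilinForm.orthogonal_le hWU hx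
  have hxg' : ∀ g ∈ P, g.1 x - x ∈ W := by
    intro g hg
    obtain ⟨w, hw, c, hc⟩ := ext0_mem.1 (hxg g hg)
    have e1 : g.1 x = x + (w + c • u) := by rw [← hc]; abel
    have e2 : Q (g.1 x) = Q x := OG_apply Q g x
    have e3 : polar Q x (w + c • u) = 0 := by
      rw [polar_comm]
      exact (mem_perp Q).1 hx _ (ext0_mem.2 ⟨w, hw, c, rfl⟩)
    rw [e1, QuadraticMap.map_add Q, e3, ext0_Q Q W hts u hu w hw c, hQu] at e2
    have e4 : c * c = 0 := by
      have : Q x + c * c * 1 + 0 = Q x := e2
      linear_combination this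
    have e5 : c = 0 := mul_self_eq_zero.1 e4
    rw [hc, e5, zero_smul, add_zero]
    exact hw
  rcases ext_F2 hF (Q x) with hQx | hQx
  · exact ext0 Q P W hW hts x hxW (fun h => hxU (hWU h)) hQx hxg'
  · refine ext0 Q P W hW hts (x + u) ((perp Q W).add_mem hxW hu) ?_ ?_ ?_
    · intro h
      apply hxU
      have : x = (x + u) + (-1 : F) • u := by simp
      rw [this]
      exact ext0_mem.2 ⟨x + u, h, -1, rfl⟩
    · have e3 : polar Q x u = 0 := by
        rw [polar_comm]
        exact (mem_perp Q).1 hx _ huU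
      rw [QuadraticMap.map_add Q, e3, hQx, hQu, add_zero, one_add_one_eq_two, h2]
    · intro g hg
      have : g.1 (x + u) - (x + u) = (g.1 x - x) + (g.1 u - u) := by
        rw [map_add]; abel
      rw [this]
      exact W.add_mem (hxg' g hg) (hug g hg)

end Cfsg.Agent.Lib.Helper68.OFlag
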