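import Mathlib
import Cfsg.Agent.Lib.Helper68.OFlag.Defs
import Cfsg.Agent.Lib.Helper68.OFlag.EXT

set_option autoImplicit false

/-! Ladder OFLAG (S2487): rung SIEGEL. -/

namespace Cfsg.Agent.Lib.Helper68.OFlag

open QuadraticMap Module Cfsg.Agent.Lib.Helper49

variable {F : Type*} [Field F] [Fintype F] {V : Type*} [AddCommGroup V] [Module F V]
  [FiniteDimensional F V] (Q : QuadraticForm F V)

/-- the Siegel map (characteristic 2). -/
noncomputable def siegel_lin (u u' : V) : V →ₗ[F] V :=
  LinearMap.id + (LinearMap.toSpanSingleton F V u').comp (polarBilin Q u) +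
    (LinearMap.toSpanSingleton F V u).comp (polarBilin Q u')

omit [Fintype F] [FiniteDimensional F V] in
theorem siegel_lin_apply (u u' x : V) :
    siegel_lin Q u u' x = x + polar Q u x • u' + polar Q u' x • u := by
  simp [siegel_lin, LinearMap.toSpanSingleton_apply]

omit [Fintype F] [FiniteDimensional F V] in
theorem siegel_invol (h2 : (2 : F) = 0) (u u' : V) (hu : Q u = 0) (hu' : Q u' = 0)
    (huu : polar Q u u' = 0) (x : V) : siegel_lin Q u u' (siegel_lin Q u u' x) = x := by
  have e1 : polar Q u u = 0 := by rw [polar_self, hu, smul_zero]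
  have e2 : polar Q u' u' = 0 := by rw [polar_self, hu', smul_zero]
  have e3 : polar Q u' u = 0 := by rw [polar_comm, huu]
  rw [siegel_lin_apply Q u u' (siegel_lin Q u u' x), siegel_lin_apply Q u u' x]
  simp only [polar_add_right, polar_smul_right, e1, e2, e3, huu, smul_zero, add_zero]
  have e4 : ∀ (c : F) (v : V), c • v + c • v = 0 := by
    intro c v
    rw [← add_smul, ← two_mul, h2, zero_mul, zero_smul]
  have : x + polar Q u x • u' + polar Q u' x • u + polar Q u x • u' + polar Q u' x • u
      = x + (polar Q u x • u' + polar Q u x • u') + (polar Q u' x • u + polar Q u' x • u) := by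
    abel
  rw [this, e4, e4, add_zero, add_zero]

omit [Fintype F] [FiniteDimensional F V] in
theorem siegel_Q (h2 : (2 : F) = 0) (u u' : V) (hu : Q u = 0) (hu' : Q u' = 0)
    (huu : polar Q u u' = 0) (x : V) : Q (siegel_lin Q u u' x) = Q x := by
  have e3 : polar Q u' u = 0 := by rw [polar_comm, huu]
  rw [siegel_lin_apply, add_assoc, QuadraticMap.map_add Q, QuadraticMap.map_add Q,
    QuadraticMap.map_smul, QuadraticMap.map_smul, hu, hu', polar_add_right, polar_smul_right,
    polar_smul_right, polar_smul_left, polar_smul_right, e3, polar_comm Q x u', polar_comm Q x u]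
  simp only [smul_eq_mul, mul_zero, add_zero, zero_add]
  linear_combination (polar Q u x * polar Q u' x) * h2

/-- [SIEGEL] -/
theorem siegel (hF : Fintype.card F = 2) (hQ : (polarBilin Q).Nondegenerate) (u u' : V)
    (hu : Q u = 0) (hu' : Q u' = 0) (huu : polar Q u u' = 0) (hne : u ≠ 0) (hne' : u' ≠ 0)
    (hd : u ≠ u') :
    ∃ g : OG Q, g ≠ 1 ∧ ∀ x, polar Q u x = 0 → polar Q u' x = 0 → g.1 x = x := by
  have hch := lemq_charP hF
  have h2 : (2 : F) = 0 := CharTwo.two_eq_zero
  refine ⟨⟨LinearEquiv.ofInvolutive (siegel_lin Q u u') (siegel_invol Q h2 u u' hu hu' huu),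
    fun x => siegel_Q Q h2 u u' hu hu' huu x⟩, ?_, ?_⟩
  · intro h
    have hx : ∃ x, polar Q u x ≠ 0 := by
      by_contra hcon
      push Not at hcon
      exact hne (hQ.1 u hcon)
    obtain ⟨x, hx⟩ := hx
    have hx1 : polar Q u x = 1 := (ext_F2 hF _).resolve_left hx
    have h3 : siegel_lin Q u u' x = x := by
      have := congrArg (fun g : OG Q => g.1 x) h
      exact this
    rw [siegel_lin_apply, hx1, one_smul, add_assoc] at h3
    have h4 : u' + polar Q u' x • u = 0 := by
      have := h3
      simpa using this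
    rcases ext_F2 hF (polar Q u' x) with h5 | h5
    · rw [h5, zero_smul, add_zero] at h4
      exact hne' h4
    · rw [h5, one_smul] at h4
      have h6 : u + u = 0 := by
        rw [← two_smul F u, h2, zero_smul]
      apply hd
      have : u = u + (u' + u) := by rw [h4, add_zero]
      rw [this]
      have : u + (u' + u) = u' + (u + u) := by abel
      rw [this, h6, add_zero]
  · intro x h1 h1'
    change siegel_lin Q u u' x = x
    rw [siegel_lin_apply, h1, h1', zero_smul, zero_smul, add_zero, add_zero]

end Cfsg.Agent.Lib.Helper68.OFlag
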