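import Mathlib
import Cfsg.Agent.Lib.Helper68.OFlag.Defs
import Cfsg.Agent.Lib.Helper68.OFlag.HYP
import Cfsg.Agent.Lib.Helper68.OFlag.SIEGEL

set_option autoImplicit false

/-! Ladder OFLAG (S2487), rung COMMON (helper76). -/

namespace Cfsg.Agent.Lib.Helper68.OFlag

open QuadraticMap Module Cfsg.Agent.Lib.Helper49

variable {F : Type*} [Field F] [Fintype F] {V : Type*} [AddCommGroup V] [Module F V]
  [FiniteDimensional F V] (Q : QuadraticForm F V)

theorem common (hF : Fintype.card F = 2) (hQ : (polarBilin Q).Nondegenerate) {m : ℕ}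
    (hV : finrank F V = 2 * m) (A A' : Submodule F V) (hA : finrank F A + 1 ≤ m)
    (hA' : finrank F A' + 1 ≤ m) : ∃ g : OG Q, g ≠ 1 ∧ g ∈ RR Q A ∧ g ∈ RR Q A' := by
  set X : Submodule F V := perp Q (A ⊔ A') with hX
  have hXd : 2 ≤ finrank F X := by
    rw [hX, hyp_finrank_perp Q hQ, hV]
    have := Submodule.finrank_add_le_finrank_add_finrank A A'
    omega
  have hXA : ∀ a ∈ X, ∀ x ∈ A, polar Q a x = 0 := by
    intro a ha x hx
    rw [polar_comm]
    exact (mem_perp Q).1 ha x (Submodule.mem_sup_left hx)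
  have hXA' : ∀ a ∈ X, ∀ x ∈ A', polar Q a x = 0 := by
    intro a ha x hx
    rw [polar_comm]
    exact (mem_perp Q).1 ha x (Submodule.mem_sup_right hx)
  by_cases hex : ∃ a ∈ X, Q a ≠ 0
  · obtain ⟨a, ha, hQa⟩ := hex
    refine ⟨refl Q a, ?_, ?_, ?_⟩
    · intro h1
      have ha0 : a ≠ 0 := by
        rintro rfl
        exact hQa (map_zero Q)
      obtain ⟨z, hz⟩ : ∃ z, polar Q a z ≠ 0 := by
        by_contra hcon
        push Not at hcon
        exact ha0 (hQ.1 a hcon)
      have h2 : (refl Q a).1 z = z := by rw [h1]; rfl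
      rw [refl_coe_apply, reflLin_apply, sub_eq_self, smul_eq_zero] at h2
      rcases h2 with h2 | h2
      · exact (mul_ne_zero (inv_ne_zero hQa) hz) h2
      · exact ha0 h2
    · rw [mem_RR]
      intro x hx
      exact reflLin_of_polar_eq_zero Q a x (hXA a ha x hx)
    · rw [mem_RR]
      intro x hx
      exact reflLin_of_polar_eq_zero Q a x (hXA' a ha x hx)
  · push Not at hex
    obtain ⟨u, huX, hu0⟩ : ∃ u ∈ X, u ≠ 0 := by
      apply Submodule.exists_mem_ne_zero_of_ne_bot
      intro hbot
      rw [hbot, finrank_bot] at hXd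
      omega
    obtain ⟨u', hu'X, hu'⟩ : ∃ u' ∈ X, u' ∉ Submodule.span F {u} := by
      by_contra hcon
      push Not at hcon
      have hle : X ≤ Submodule.span F {u} := hcon
      have := Submodule.finrank_mono hle
      rw [finrank_span_singleton hu0] at this
      omega
    have hne' : u' ≠ 0 := by
      rintro rfl
      exact hu' (Submodule.zero_mem _)
    have hd : u ≠ u' := by
      rintro rfl
      exact hu' (Submodule.mem_span_singleton_self _)
    have huu : polar Q u u' = 0 := by
      simp only [polar, hex u huX, hex u' hu'X, hex _ (X.add_mem huX hu'X), sub_zero]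
    obtain ⟨g, hg1, hg⟩ := siegel Q hF hQ u u' (hex u huX) (hex u' hu'X) huu hu0 hne' hd
    refine ⟨g, hg1, ?_, ?_⟩
    · rw [mem_RR]
      intro x hx
      exact hg x (hXA u huX x hx) (hXA u' hu'X x hx)
    · rw [mem_RR]
      intro x hx
      exact hg x (hXA' u huX x hx) (hXA' u' hu'X x hx)

end Cfsg.Agent.Lib.Helper68.OFlag
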