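import Mathlib
import Cfsg.Agent.Lib.Helper68.OFlag.Defs
import Cfsg.Agent.Lib.Helper68.OFlag.EXT

set_option autoImplicit false

/-! Ladder OFLAG (S2487): rung PLUS. -/

namespace Cfsg.Agent.Lib.Helper68.OFlag

open QuadraticMap Module Cfsg.Agent.Lib.Helper49

variable {F : Type*} [Field F] [Fintype F] {V : Type*} [AddCommGroup V] [Module F V]
  [FiniteDimensional F V] (Q : QuadraticForm F V)

/-- [PLUS] -/
theorem plus (hQ : (polarBilin Q).Nondegenerate) {m : ℕ} (hV : finrank F V = 2 * m)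
    (M₀ : Submodule F V) (hM : TS Q M₀) (hMd : finrank F M₀ = m)
    (A : Submodule F V) (hA : TS Q A) (hAd : finrank F A + 1 = m) :
    ∃ e ∈ perp Q A, e ∉ A ∧ Q e = 0 := by
  have h1 : M₀ ⊔ perp Q A ≤ perp Q (M₀ ⊓ A) := by
    apply sup_le
    · exact (ext_le_perp Q M₀ hM).trans (LinearMap.BilinForm.orthogonal_le inf_le_left)
    · exact LinearMap.BilinForm.orthogonal_le inf_le_right
  have h2 := Submodule.finrank_mono h1
  have h3 := ext_finrank_perp Q hQ (M₀ ⊓ A)
  have h4 := ext_finrank_perp Q hQ A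
  have h5 := Submodule.finrank_sup_add_finrank_inf_eq M₀ (perp Q A)
  have h6 : finrank F (M₀ ⊓ A : Submodule F V) < finrank F (M₀ ⊓ perp Q A : Submodule F V) := by
    omega
  have h7 : ¬ (M₀ ⊓ perp Q A ≤ M₀ ⊓ A) := by
    intro h
    have := Submodule.finrank_mono h
    omega
  obtain ⟨e, he, heA⟩ := SetLike.not_le_iff_exists.1 h7
  rw [Submodule.mem_inf] at he heA
  exact ⟨e, he.2, fun h => heA ⟨he.1, h⟩, hM e he.1⟩

end Cfsg.Agent.Lib.Helper68.OFlag
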