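import Mathlib
import Cfsg.Agent.Lib.Helper68.OFlag.Defs
import Cfsg.Agent.Lib.Helper68.OFlag.EXT
import Cfsg.Agent.Lib.Helper68.OFlag.PLUS
import Cfsg.Agent.Lib.Helper68.OFlag.HYP
import Cfsg.Agent.Lib.Helper68.OFlag.RAD
import Cfsg.Agent.Lib.Helper68.OFlag.COMMON

set_option autoImplicit false

/-! Ladder OFLAG (S2487): assembly of the abstract statement. -/

namespace Cfsg.Agent.Lib.Helper68.OFlag

open QuadraticMap Module Cfsg.Agent.Lib.Helper49

variable {F : Type*} [Field F] [Fintype F] {V : Type*} [AddCommGroup V] [Module F V]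
  [FiniteDimensional F V] (Q : QuadraticForm F V)

/-- [INV] -/
theorem exists_inv (hF : Fintype.card F = 2) (hQ : (polarBilin Q).Nondegenerate) {m : ℕ}
    (hV : finrank F V = 2 * m) (P : Subgroup (OG Q)) (hP : IsPGroup 2 P) (k : ℕ) (hk : k + 1 ≤ m) :
    ∃ W : Submodule F V, Inv Q P W ∧ TS Q W ∧ finrank F W = k := by
  induction k with
  | zero =>
    refine ⟨⊥, ?_, ?_, finrank_bot F V⟩
    · intro g _ x hx
      rw [Submodule.mem_bot] at hx ⊢
      rw [hx, map_zero]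
    · intro x hx
      rw [Submodule.mem_bot] at hx
      rw [hx, map_zero]
  | succ k ih =>
    obtain ⟨W, h1, h2, h3⟩ := ih (by omega)
    obtain ⟨W', h1', h2', h3'⟩ := ext_step Q hF hQ hV P hP W h1 h2 (by omega)
    exact ⟨W', h1', h2', by omega⟩

open scoped Pointwise in
/-- [ASM] -/
theorem abs_main (hF : Fintype.card F = 2) (hQ : (polarBilin Q).Nondegenerate) {m : ℕ}
    (hm : 1 ≤ m) (hV : finrank F V = 2 * m) (M₀ : Submodule F V) (hM : TS Q M₀)
    (hMd : finrank F M₀ = m) (H : Subgroup (OG Q)) (hH : IsPGroup 2 H)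
    (hmax : ∀ K : Subgroup (OG Q), IsPGroup 2 K → H ≤ K → K = H) (x : OG Q) :
    H ⊓ MulAut.conj x • H ≠ ⊥ := by
  obtain ⟨A, hAi, hAt, hAd⟩ := exists_inv Q hF hQ hV H hH (m - 1) (by omega)
  have hAd' : finrank F A + 1 = m := by omega
  obtain ⟨e, he, heA, hQe⟩ := plus Q hQ hV M₀ hM hMd A hAt hAd'
  obtain ⟨f, hf, hQf, hef, hsp⟩ := hyp Q hF hQ hV A hAt hAd' e he heA hQe
  have hR : IsPGroup 2 (RR Q A) := rad Q hF A hAt e f he hf hQe hQf hef hsp
  have hnorm : H ≤ Subgroup.normalizer (RR Q A : Set (OG Q)) := by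
    intro g hg
    have key : ∀ g ∈ H, ∀ h ∈ RR Q A, g * h * g⁻¹ ∈ RR Q A := by
      intro g hg h hh a ha
      have h1 : (g⁻¹).1 a ∈ A := hAi g⁻¹ (H.inv_mem hg) a ha
      change g.1 (h.1 ((g⁻¹).1 a)) = a
      rw [hh _ h1]
      have h2 : (g * g⁻¹).1 a = a := by rw [mul_inv_cancel]; rfl
      exact h2
    rw [Subgroup.mem_normalizer_iff]
    intro h
    constructor
    · exact key g hg h
    · intro hh
      have := key g⁻¹ (H.inv_mem hg) _ hh
      simpa [mul_assoc] using this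
  have hsup : IsPGroup 2 (H ⊔ RR Q A : Subgroup (OG Q)) := IsPGroup.to_sup_of_normal_right' hH hR hnorm
  have hRH : RR Q A ≤ H := by
    have := hmax _ hsup le_sup_left
    rw [← this]
    exact le_sup_right
  set A' : Submodule F V := A.map (x.1 : V →ₗ[F] V) with hA'
  have hA'd : finrank F A' = finrank F A := LinearEquiv.finrank_map_eq x.1 A
  obtain ⟨g, hg1, hgA, hgA'⟩ := common Q hF hQ hV A A' (by omega) (by omega)
  intro hbot
  apply hg1
  have hmem : g ∈ H ⊓ MulAut.conj x • H := by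
    rw [Subgroup.mem_inf]
    refine ⟨hRH hgA, ?_⟩
    rw [Subgroup.mem_pointwise_smul_iff_inv_smul_mem]
    apply hRH
    intro a ha
    have h1 : x.1 a ∈ A' := Submodule.mem_map_of_mem ha
    have h2 := hgA' _ h1
    change (x⁻¹ * g * x⁻¹⁻¹).1 a = a
    rw [inv_inv]
    change (x⁻¹).1 (g.1 (x.1 a)) = a
    rw [h2]
    have h3 : (x⁻¹ * x).1 a = a := by rw [inv_mul_cancel]; rfl
    exact h3
  rw [hbot, Subgroup.mem_bot] at hmem
  exact hmem

end Cfsg.Agent.Lib.Helper68.OFlag
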