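import Mathlib
import Cfsg.Agent.Lib.Helper68.OFlag.Defs
import Cfsg.Agent.Lib.Helper49.StdForms

set_option autoImplicit false

/-! Ladder OFLAG (S2487): rung STD. -/

namespace Cfsg.Agent.Lib.Helper68.OFlag

open QuadraticMap Module Cfsg.Agent.Lib.Helper49

theorem std_polar (F : Type*) [Field F] (m : ℕ) (u v : Fin m ⊕ Fin m → F) :
    polar (plusQF m F) u v =
      ∑ i : Fin m, (u (Sum.inl i) * v (Sum.inr i) + v (Sum.inl i) * u (Sum.inr i)) := by
  rw [plusQF_coe, polar_quadFormPlus]

theorem std_sep (F : Type*) [Field F] (m : ℕ) (x : Fin m ⊕ Fin m → F)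
    (h : ∀ y, polar (plusQF m F) x y = 0) : x = 0 := by
  classical
  funext j
  rcases j with i | i
  · have := h (Pi.single (Sum.inr i) 1)
    rw [std_polar] at this
    simpa [Pi.single_apply, Finset.sum_ite_eq] using this
  · have := h (Pi.single (Sum.inl i) 1)
    rw [std_polar] at this
    simpa [Pi.single_apply, Finset.sum_ite_eq] using this

/-- the embedding of the first half. -/
noncomputable def std_L (F : Type*) [Field F] (m : ℕ) : (Fin m → F) →ₗ[F] (Fin m ⊕ Fin m → F) :=
  LinearMap.pi (fun j => Sum.elim (fun i => LinearMap.proj i) (fun _ => 0) j)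

/-- [STD] -/
theorem std (F : Type*) [Field F] (m : ℕ) :
    (polarBilin (plusQF m F)).Nondegenerate ∧ finrank F (Fin m ⊕ Fin m → F) = 2 * m ∧
    ∃ M₀ : Submodule F (Fin m ⊕ Fin m → F), TS (plusQF m F) M₀ ∧ finrank F M₀ = m := by
  refine ⟨⟨?_, ?_⟩, ?_, LinearMap.range (std_L F m), ?_, ?_⟩
  · intro x hx
    exact std_sep F m x hx
  · intro y hy
    apply std_sep F m y
    intro x
    rw [polar_comm]
    exact hy x
  · rw [Module.finrank_fintype_fun_eq_card]
    simp
    omega
  · rintro _ ⟨f, rfl⟩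
    rw [plusQF_coe]
    simp [Cfsg.quadFormPlus, std_L]
  · rw [LinearMap.finrank_range_of_inj]
    · simp
    · intro f g hfg
      funext i
      have := congrFun hfg (Sum.inl i)
      simpa [std_L] using this

end Cfsg.Agent.Lib.Helper68.OFlag
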